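import Cfsg.Agent.Lib.ModTI.Integral
import Cfsg.Agent.Lib.ModTI.Cyclic

/-!
# Fixed points of a T.I. Sylow normalizer on representations of small degree
-/

set_option autoImplicit false

namespace Cfsg.Agent.Lib.ModTI.Fixed

open scoped BigOperators Pointwise
open Module Cfsg.Agent.Lib.ModTI.Trace Cfsg.Agent.Lib.ModTI.Integral

variable {G : Type*} [Group G] [Finite G]

/-- The relative trace decomposition for an additive action. -/
theorem exists_orbit_decomp {A : Type*} [AddCommMonoid A] (act : G → A →+ A)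
    (hone : ∀ a, act 1 a = a) (hmul : ∀ g h a, act (g * h) a = act g (act h a))
    (P N : Subgroup G) [Fintype P] [Fintype (G ⧸ N)] (hPN : P ≤ N)
    (hfree : ∀ g : G, g ∉ N → ∀ h ∈ P, g⁻¹ * h * g ∈ N → h = 1)
    (y : A) (hy : ∀ n ∈ N, act n y = y) :
    ∃ f : A, ∑ q : G ⧸ N, act q.out y = y + ∑ h : P, act (h : G) f := by
  classical
  let φ : G ⧸ N → A := fun q => act q.out y
  have hφ : ∀ g : G, φ (g : G ⧸ N) = act g y := by
    intro g
    have h1 : ((g : G ⧸ N).out)⁻¹ * g ∈ N := QuotientGroup.eq.mp (Quotient.out_eq (g : G ⧸ N))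
    have h2 : g = (g : G ⧸ N).out * (((g : G ⧸ N).out)⁻¹ * g) := by group
    change act (g : G ⧸ N).out y = act g y
    conv_rhs => rw [h2, hmul, hy _ h1]
  have hφs : ∀ (g : G) (q : G ⧸ N), φ (g • q) = act g (φ q) := by
    intro g q
    induction q using QuotientGroup.induction_on with
    | H z =>
      have h1 : g • (z : G ⧸ N) = ((g * z : G) : G ⧸ N) := rfl
      rw [h1, hφ, hφ, hmul]
  let S : SubMulAction P (G ⧸ N) :=
    { carrier := {q | q ≠ ((1 : G) : G ⧸ N)}
      smul_mem' := by
        intro h q hq hq'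
        apply hq
        have h1 : ((h : G) • q) = ((1 : G) : G ⧸ N) := hq'
        have h2 : q = (h : G)⁻¹ • ((1 : G) : G ⧸ N) := by
          rw [← h1, inv_smul_smul]
        rw [h2]
        change (((h : G)⁻¹ * 1 : G) : G ⧸ N) = ((1 : G) : G ⧸ N)
        rw [QuotientGroup.eq]
        have : (h : G) ∈ N := hPN h.2
        simpa using this }
  letI : Fintype S := Fintype.ofFinite _
  obtain ⟨f, hf⟩ := exists_sum_eq_of_free (P := P) (X := S) (fun h => act (h : G)) (fun q => φ q.1)
    (by
      intro h q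
      exact hφs (h : G) q.1)
    (by
      intro q h hq
      have hq1 : q.1 ≠ ((1 : G) : G ⧸ N) := q.2
      have hq2 : (h : G) • q.1 = q.1 := congrArg Subtype.val hq
      have hq3 : ∃ g : G, (g : G ⧸ N) = q.1 := ⟨q.1.out, Quotient.out_eq _⟩
      obtain ⟨g, hg⟩ := hq3
      rw [← hg] at hq1 hq2
      have hgN : g ∉ N := by
        intro h'
        apply hq1
        rw [QuotientGroup.eq]
        simpa using h'
      have h3 : ((h * g : G) : G ⧸ N) = (g : G ⧸ N) := hq2
      rw [QuotientGroup.eq] at h3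
      have h4 : g⁻¹ * (h : G) * g ∈ N := by
        have := N.inv_mem h3
        simpa [mul_assoc] using this
      have := hfree g hgN h h.2 h4
      exact Subtype.ext this)
  refine ⟨f, ?_⟩
  have h1 : ∑ q : G ⧸ N, φ q = φ ((1 : G) : G ⧸ N) +
      ∑ q : {q : G ⧸ N // q ≠ ((1 : G) : G ⧸ N)}, φ q.1 :=
    Fintype.sum_eq_add_sum_subtype_ne φ _
  have h2 : φ ((1 : G) : G ⧸ N) = y := by
    rw [hφ, hone]
  change ∑ q : G ⧸ N, φ q = _
  rw [h1, h2]
  congr 1
  have h3 : ∑ q : {q : G ⧸ N // q ≠ ((1 : G) : G ⧸ N)}, φ q.1 = ∑ x : S, φ x.1 := by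
    let e : {q : G ⧸ N // q ≠ ((1 : G) : G ⧸ N)} ≃ S :=
      ⟨fun q => ⟨q.1, q.2⟩, fun x => ⟨x.1, x.2⟩, fun _ => rfl, fun _ => rfl⟩
    exact Fintype.sum_equiv e _ _ fun _ => rfl
  rw [h3, hf]

variable {W : Type*} [AddCommGroup W] [Module ℂ W] [FiniteDimensional ℂ W]
  (ρ : Representation ℂ G W)

/-- The key lower bound: a nonzero `N`-fixed vector with relative trace zero forces the degree to be
at least `|P|`; and if the degree equals `|P|`, then it spans the `P`-fixed points. -/
theorem ti_bound {p : ℕ} [Fact p.Prime] (P N : Subgroup G) [Fintype P] [Fintype (G ⧸ N)]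
    (hP : IsPGroup p P) (hPN : P ≤ N)
    (hfree : ∀ g : G, g ∉ N → ∀ h ∈ P, g⁻¹ * h * g ∈ N → h = 1)
    (v : W) (hv : v ≠ 0) (hvN : ∀ n ∈ N, ρ n v = v) (hT : ∑ q : G ⧸ N, ρ q.out v = 0) :
    Fintype.card P ≤ finrank ℂ W ∧
      (finrank ℂ W = Fintype.card P → ∀ v' : W, (∀ h ∈ P, ρ h v' = v') → ∃ c : ℂ, v' = c • v) := by
  classical
  obtain ⟨V, hpV⟩ := exists_valuationSubring (Fact.out : p.Prime)
  obtain ⟨n, b, hb⟩ := exists_integral_basis V ρ
  let M : G → Matrix (Fin n) (Fin n) ℂ := fun g => LinearMap.toMatrix b b (ρ g)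
  have hMe : ∀ g i j, M g i j = b.repr (ρ g (b j)) i := fun g i j => LinearMap.toMatrix_apply _ _ _ _ _
  have hMint : ∀ g i j, M g i j ∈ V := fun g i j => by rw [hMe]; exact hb g i j
  have hMvec : ∀ (g : G) (x : W), (M g).mulVec (b.equivFun x) = b.equivFun (ρ g x) := by
    intro g x
    have h1 := LinearMap.toMatrix_mulVec_repr b b (ρ g) x
    exact h1
  let τ : G → Matrix (Fin n) (Fin n) V := fun g => Matrix.of fun i j => ⟨M g i j, hMint g i j⟩
  have hτ : ∀ g, (τ g).map V.subtype = M g := by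
    intro g
    ext i j
    rfl
  have hMone : M 1 = 1 := by
    change LinearMap.toMatrix b b (ρ 1) = 1
    rw [map_one]
    exact LinearMap.toMatrix_one b
  have hMmul : ∀ g h, M (g * h) = M g * M h := by
    intro g h
    change LinearMap.toMatrix b b (ρ (g * h)) = LinearMap.toMatrix b b (ρ g) * LinearMap.toMatrix b b (ρ h)
    rw [map_mul]
    exact LinearMap.toMatrix_mul b _ _
  have hinjmap : Function.Injective (fun A : Matrix (Fin n) (Fin n) V => A.map V.subtype) :=
    Matrix.map_injective Subtype.val_injective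
  have hτ1 : τ 1 = 1 := by
    apply hinjmap
    change (τ 1).map V.subtype = (1 : Matrix (Fin n) (Fin n) V).map V.subtype
    rw [hτ, hMone, Matrix.map_one _ (map_zero _) (map_one _)]
  have hτm : ∀ g h, τ (g * h) = τ g * τ h := by
    intro g h
    apply hinjmap
    change (τ (g * h)).map V.subtype = (τ g * τ h).map V.subtype
    rw [hτ, Matrix.map_mul, hτ, hτ, hMmul]
  -- coercion of vectors
  let co : (Fin n → V) → (Fin n → ℂ) := fun u i => (u i : ℂ)
  have hco_inj : Function.Injective co := by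
    intro a c h
    ext i
    exact congrFun h i
  have hco : ∀ (g : G) (u : Fin n → V), co ((τ g).mulVec u) = (M g).mulVec (co u) := by
    intro g u
    ext i
    have h1 := RingHom.map_mulVec V.subtype (τ g) u i
    rw [hτ] at h1
    exact h1
  -- the primitive vector
  have ha : ∃ i, b.equivFun v i ≠ 0 := by
    by_contra hcon
    push Not at hcon
    apply hv
    have : b.equivFun v = 0 := funext hcon
    simpa using this
  obtain ⟨k₀, hk0, hk⟩ := exists_max_val V (b.equivFun v) ha
  let c₀ : ℂ := (b.equivFun v k₀)⁻¹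
  have hc₀ : c₀ ≠ 0 := inv_ne_zero hk0
  let u₀ : Fin n → V := fun i => ⟨b.equivFun v i / b.equivFun v k₀, hk i⟩
  have hu₀ : co u₀ = b.equivFun (c₀ • v) := by
    ext i
    change b.equivFun v i / b.equivFun v k₀ = _
    rw [map_smul, Pi.smul_apply, smul_eq_mul, div_eq_inv_mul]
  have hu₀k : u₀ k₀ = 1 := by
    apply Subtype.ext
    change b.equivFun v k₀ / b.equivFun v k₀ = 1
    exact div_self hk0
  -- the additive action
  let act : G → (Fin n → V) →+ (Fin n → V) := fun g => (Matrix.mulVecLin (τ g)).toAddMonoidHom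
  have hact : ∀ g u, act g u = (τ g).mulVec u := fun _ _ => rfl
  obtain ⟨f, hf⟩ := exists_orbit_decomp act
    (by intro a; rw [hact, hτ1, Matrix.one_mulVec])
    (by intro g h a; rw [hact, hact, hact, hτm, Matrix.mulVec_mulVec])
    P N hPN hfree u₀ (by
      intro z hz
      apply hco_inj
      rw [hact, hco, hu₀, hMvec, map_smul, map_smul, hvN z hz, map_smul])
  have hsum0 : ∑ q : G ⧸ N, act q.out u₀ = 0 := by
    apply hco_inj
    have h1 : co (∑ q : G ⧸ N, act q.out u₀) = ∑ q : G ⧸ N, co (act q.out u₀) := by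
      ext i
      simp [co, Finset.sum_apply]
    rw [h1]
    have h2 : ∀ q : G ⧸ N, co (act q.out u₀) = b.equivFun (c₀ • ρ q.out v) := by
      intro q
      rw [hact, hco, hu₀, hMvec, map_smul, map_smul]
    simp only [h2]
    rw [← map_sum, ← Finset.smul_sum, hT, smul_zero, map_zero]
    rfl
  rw [hsum0] at hf
  have hf' : ∑ h : P, (τ (h : G)).mulVec f = - u₀ := by
    have := eq_neg_of_add_eq_zero_right hf.symm
    exact this
  -- independence
  let τP : P → Matrix (Fin n) (Fin n) V := fun h => τ (h : G)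
  have hunit : IsUnit ((∑ h : P, (τP h).mulVec f) k₀) := by
    change IsUnit ((∑ h : P, (τ (h : G)).mulVec f) k₀)
    rw [hf', Pi.neg_apply, hu₀k]
    exact isUnit_one.neg
  have hind := indep_of_trace V hpV hP τP (by change τ ((1 : P) : G) = 1; simpa using hτ1)
    (by
      intro a c
      change τ ((a * c : P) : G) = τ (a : G) * τ (c : G)
      rw [Subgroup.coe_mul, hτm]) f k₀ hunit
  have hfr : finrank ℂ W = n := finrank_eq_card_basis b |>.trans (Fintype.card_fin n)
  have hle : Fintype.card P ≤ finrank ℂ W := by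
    have := hind.fintype_card_le_finrank
    rw [finrank_fin_fun] at this
    rwa [hfr]
  refine ⟨hle, ?_⟩
  intro heq v' hv'
  -- the translates form a basis
  have hspan : Submodule.span ℂ (Set.range (fun h : P => fun i => (((τP h).mulVec f i : V) : ℂ))) = ⊤ := by
    apply hind.span_eq_top_of_card_eq_finrank
    rw [finrank_fin_fun, ← hfr, heq]
  have hmem : b.equivFun v' ∈ Submodule.span ℂ
      (Set.range (fun h : P => fun i => (((τP h).mulVec f i : V) : ℂ))) := by
    rw [hspan]
    trivial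
  obtain ⟨c, hc⟩ := (Submodule.mem_span_range_iff_exists_fun ℂ).mp hmem
  let wh : P → Fin n → ℂ := fun h i => (((τP h).mulVec f i : V) : ℂ)
  have hwh : ∀ (z : P) (h : P), (M (z : G)).mulVec (wh h) = wh (z * h) := by
    intro z h
    have h1 : wh h = co ((τ (h : G)).mulVec f) := rfl
    have h2 : wh (z * h) = co ((τ ((z * h : P) : G)).mulVec f) := rfl
    rw [h1, h2, ← hco, Subgroup.coe_mul, hτm, Matrix.mulVec_mulVec]
  have hcc : ∀ z h : P, c (z⁻¹ * h) = c h := by
    intro z h
    have h1 : (M (z : G)).mulVec (∑ i, c i • wh i) = ∑ i, c i • wh i := by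
      rw [hc, hMvec, hv' z z.2]
    rw [Matrix.mulVec_sum] at h1
    have h2 : ∀ i, (M (z : G)).mulVec (c i • wh i) = c i • wh (z * i) := by
      intro i
      rw [Matrix.mulVec_smul, hwh]
    simp only [h2] at h1
    have h3 : ∑ i, c i • wh (z * i) = ∑ i, c (z⁻¹ * i) • wh i := by
      have := Equiv.sum_comp (Equiv.mulLeft z) (fun i => c (z⁻¹ * i) • wh i)
      rw [← this]
      refine Finset.sum_congr rfl fun i _ => ?_
      simp
    rw [h3] at h1
    have h4 : ∑ i, (c (z⁻¹ * i) - c i) • wh i = 0 := by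
      simp only [sub_smul]
      rw [Finset.sum_sub_distrib, h1, sub_self]
    have h5 := (Fintype.linearIndependent_iff.mp hind) _ h4 h
    exact sub_eq_zero.mp h5
  have hconst : ∀ h : P, c h = c 1 := by
    intro h
    have := hcc h⁻¹ 1
    simpa using this
  refine ⟨-(c 1) * c₀, ?_⟩
  apply b.equivFun.injective
  rw [← hc]
  have h6 : ∑ i, c i • wh i = c 1 • ∑ i, wh i := by
    rw [Finset.smul_sum]
    exact Finset.sum_congr rfl fun i _ => by rw [hconst]
  rw [h6]
  have h7 : ∑ i, wh i = - co u₀ := by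
    have h8 : co (∑ h : P, (τ (h : G)).mulVec f) = ∑ h : P, wh h := by
      ext i
      simp [co, Finset.sum_apply, wh, τP]
    rw [← h8, hf']
    ext i
    simp [co]
  rw [h7, hu₀, map_smul, map_smul]
  simp only [smul_neg, neg_mul, neg_smul, mul_smul]

/-- The normalizer of a T.I. Sylow subgroup and the whole group have the same fixed points on a
representation of small degree. -/
theorem finrank_invariants_le {p : ℕ} [Fact p.Prime] (P : Sylow p G)
    (hTI : ∀ g : G, g ∉ Subgroup.normalizer ((P : Subgroup G) : Set G) →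
      (P : Subgroup G) ⊓ (MulAut.conj g • (P : Subgroup G)) = ⊥)
    (hW : finrank ℂ W < Nat.card (P : Subgroup G) ∨
      (finrank ℂ W = Nat.card (P : Subgroup G) ∧ ∃ v : W, v ≠ 0 ∧ ∀ g, ρ g v = v)) :
    finrank ℂ (Representation.invariants
        (ρ.comp (Subgroup.normalizer ((P : Subgroup G) : Set G)).subtype)) ≤
      finrank ℂ (Representation.invariants ρ) := by
  classical
  letI : Fintype (P : Subgroup G) := Fintype.ofFinite _
  letI : Fintype (G ⧸ Subgroup.normalizer ((P : Subgroup G) : Set G)) := Fintype.ofFinite _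
  have hP1 : ∀ (g : G) (v : W), v ∈ Representation.invariants
      (ρ.comp (Subgroup.normalizer ((P : Subgroup G) : Set G)).subtype) →
      ρ (g : G ⧸ Subgroup.normalizer ((P : Subgroup G) : Set G)).out v = ρ g v := by
    intro g v hv
    have h1 : ((g : G ⧸ Subgroup.normalizer ((P : Subgroup G) : Set G)).out)⁻¹ * g ∈
        Subgroup.normalizer ((P : Subgroup G) : Set G) :=
      QuotientGroup.eq.mp (Quotient.out_eq (g : G ⧸ Subgroup.normalizer ((P : Subgroup G) : Set G)))
    have h2 : g = (g : G ⧸ Subgroup.normalizer ((P : Subgroup G) : Set G)).out *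
        (((g : G ⧸ Subgroup.normalizer ((P : Subgroup G) : Set G)).out)⁻¹ * g) := by group
    have h3 := hv ⟨_, h1⟩
    have h4 : ρ (((g : G ⧸ Subgroup.normalizer ((P : Subgroup G) : Set G)).out)⁻¹ * g) v = v := h3
    conv_rhs => rw [h2, map_mul, Module.End.mul_apply, h4]
  let T : W →ₗ[ℂ] W := ∑ q : G ⧸ Subgroup.normalizer ((P : Subgroup G) : Set G), ρ q.out
  have hTapp : ∀ v, T v = ∑ q : G ⧸ Subgroup.normalizer ((P : Subgroup G) : Set G), ρ q.out v := by
    intro v
    simp [T, LinearMap.sum_apply]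
  have hTinv : ∀ v ∈ Representation.invariants
      (ρ.comp (Subgroup.normalizer ((P : Subgroup G) : Set G)).subtype),
      T v ∈ Representation.invariants ρ := by
    intro v hv g
    rw [hTapp, map_sum]
    have h1 : ∀ q : G ⧸ Subgroup.normalizer ((P : Subgroup G) : Set G),
        ρ g (ρ q.out v) = ρ (g • q).out v := by
      intro q
      have h2 : g • q = ((g * q.out : G) : G ⧸ Subgroup.normalizer ((P : Subgroup G) : Set G)) := by
        conv_lhs => rw [← Quotient.out_eq q]
        rfl
      rw [h2, hP1 _ _ hv, map_mul, Module.End.mul_apply]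
    simp only [h1]
    exact Equiv.sum_comp (MulAction.toPerm g)
      (fun q : G ⧸ Subgroup.normalizer ((P : Subgroup G) : Set G) => ρ q.out v)
  let T' : Representation.invariants
      (ρ.comp (Subgroup.normalizer ((P : Subgroup G) : Set G)).subtype) →ₗ[ℂ]
      Representation.invariants ρ :=
    (T.domRestrict _).codRestrict _ (fun v => hTinv v v.2)
  apply LinearMap.finrank_le_finrank_of_injective (f := T')
  rw [injective_iff_map_eq_zero]
  intro v hv
  by_contra hne
  have hv0 : (v : W) ≠ 0 := fun h => hne (Subtype.ext h)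
  have hTv : T v = 0 := congrArg Subtype.val hv
  rw [hTapp] at hTv
  obtain ⟨h1, h2⟩ := ti_bound ρ (P : Subgroup G) (Subgroup.normalizer ((P : Subgroup G) : Set G))
    (P.isPGroup') (P : Subgroup G).le_normalizer
    (fun g hg h hh hn => Cfsg.Agent.Lib.ModTI.Cyclic.free_of_TI P hTI g hg h hh hn)
    (v : W) hv0 (fun n hn => v.2 ⟨n, hn⟩) hTv
  rw [← Nat.card_eq_fintype_card] at h1 h2
  rcases hW with hW | ⟨heq, v', hv'0, hv'⟩
  · omega
  · obtain ⟨c, hc⟩ := h2 heq v' (fun h _ => hv' h)
    have hc0 : c ≠ 0 := by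
      rintro rfl
      apply hv'0
      rw [hc, zero_smul]
    have hvG : ∀ g, ρ g (v : W) = v := by
      intro g
      have h3 := hv' g
      rw [hc, map_smul] at h3
      exact smul_right_injective W hc0 h3
    simp only [hvG] at hTv
    rw [Finset.sum_const, Finset.card_univ] at hTv
    have h4 : ((Fintype.card (G ⧸ Subgroup.normalizer ((P : Subgroup G) : Set G)) : ℕ) : ℂ) ≠ 0 := by
      exact_mod_cast Fintype.card_ne_zero
    rw [← Nat.cast_smul_eq_nsmul ℂ] at hTv
    exact hv0 ((smul_eq_zero.mp hTv).resolve_left h4)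

/-- For an overgroup of the normalizer of a T.I. Sylow subgroup. -/
theorem finrank_invariants_eq {p : ℕ} [Fact p.Prime] (P : Sylow p G)
    (hTI : ∀ g : G, g ∉ Subgroup.normalizer ((P : Subgroup G) : Set G) →
      (P : Subgroup G) ⊓ (MulAut.conj g • (P : Subgroup G)) = ⊥)
    (hW : finrank ℂ W < Nat.card (P : Subgroup G) ∨
      (finrank ℂ W = Nat.card (P : Subgroup G) ∧ ∃ v : W, v ≠ 0 ∧ ∀ g, ρ g v = v))
    (H : Subgroup G) (hH : Subgroup.normalizer ((P : Subgroup G) : Set G) ≤ H) :
    finrank ℂ (Representation.invariants (ρ.comp H.subtype)) =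
      finrank ℂ (Representation.invariants ρ) := by
  apply le_antisymm
  · refine le_trans (Submodule.finrank_mono ?_) (finrank_invariants_le ρ P hTI hW)
    intro v hv n
    exact hv ⟨n, hH n.2⟩
  · apply Submodule.finrank_mono
    intro v hv n
    exact hv n

end Cfsg.Agent.Lib.ModTI.Fixed
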